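import Mathlib
import Cfsg.Agent.H561.HT.Par
import Cfsg.Agent.H523.FpfCycFam
import Cfsg.Agent.H392.TD.Case
import Cfsg.Agent.H934.RowTwD4
import Cfsg.Agent.H905.MdC

/-!
# S4933: `³D₄(q)`, `p = 3 ∣ q - 1` (helper67)

An instance of `H561.HT.row_of_rgd`: `J = {1}` (the short node), the character of the torus is `χ ∘ γ`, `γ` the
highest root, `χ` of order three.

* `row_d4_one` : `Row 3 ↥(twistedD4 K q)` for `3 ∣ q - 1`.
-/

set_option autoImplicit false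
set_option linter.unusedSectionVars false

open Cfsg Subgroup

namespace Cfsg.Agent.H67.HT.D4One

open CoxeterSystem Cfsg.Agent.ChevalleyStructure.CoxeterGeom Cfsg.Agent.Tits.Roots Cfsg.Agent.Tits.Core
  Cfsg.Agent.Tits.Exchange Cfsg.Agent.Nodes.Reps Cfsg.Agent.Nodes.BNOf Cfsg.Agent.Nodes.StabComb
  Cfsg.Agent.Nodes.Bruhat Cfsg.Agent.Nodes.OppDec Cfsg.Agent.Nodes.LeviDec Cfsg.Agent.H53.HC
  Cfsg.Agent.KFacts.RgdAut Cfsg.Agent.KFacts.RgdDiag
open Cfsg.Lie Cfsg.Agent.ChevalleyStructure Cfsg.Agent.Nodes.RGDTwD4 Cfsg.Agent.Nodes.RGDFold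
open Cfsg.Agent.H316.HT Cfsg.Agent.H561.HT Cfsg.Agent.H392.TD

universe u

/-- the Coxeter system -/
abbrev cG : CoxeterSystem CoxeterMatrix.G₂ CoxeterMatrix.G₂.Group := CoxeterMatrix.G₂.toCoxeterSystem

/-! ### the highest root -/

/-- the highest root -/
def gam : Fin 2 → ℤ := ![2, 3]

theorem A_eq : A 0 0 = 2 ∧ A 0 1 = -1 ∧ A 1 0 = -3 ∧ A 1 1 = 2 := by decide +kernel

theorem pair_zero (x : Fin 2 → ℤ) : pairing A 0 x = 2 * x 0 - x 1 := by
  obtain ⟨h1, h2, -, -⟩ := A_eq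
  show ∑ j, A 0 j * x j = _
  rw [Fin.sum_univ_two, h1, h2]
  ring

theorem pair_one (x : Fin 2 → ℤ) : pairing A 1 x = -3 * x 0 + 2 * x 1 := by
  obtain ⟨-, -, h1, h2⟩ := A_eq
  show ∑ j, A 1 j * x j = _
  rw [Fin.sum_univ_two, h1, h2]

theorem dom_gam : Dom A gam := by
  intro i
  fin_cases i
  · show 0 ≤ pairing A 0 gam
    rw [pair_zero]
    simp [gam]
  · show 0 ≤ pairing A 1 gam
    rw [pair_one]
    simp [gam]

theorem orth_gam : orth cG isCartan gam = {1} := by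
  ext i
  rw [mem_orth]
  fin_cases i
  · show pairing A 0 gam = 0 ↔ _
    rw [pair_zero]
    simp [gam]
  · show pairing A 1 gam = 0 ↔ _
    rw [pair_one]
    simp [gam]

/-- the states: the exponents of the character -/
def st : List (Fin 2) → ℤ × ℤ
  | [] => (0, 1)
  | i :: ω => if i = 0 then ((st ω).1 + (st ω).2, -(st ω).2) else (-(st ω).1, (st ω).2 + 3 * (st ω).1)

/-- the long roots -/
def LG : List (ℤ × ℤ) := [(2, 3), (1, 3), (1, 0), (-2, -3), (-1, -3), (-1, 0)]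

theorem LG_closed : ∀ z ∈ LG, (z.2 - z.1, z.2) ∈ LG ∧ (z.1, 3 * z.1 - z.2) ∈ LG := by decide

theorem st_spec (ω : List (Fin 2)) :
    (rep cG isCartan (cG.wordProd ω) gam 0, rep cG isCartan (cG.wordProd ω) gam 1) ∈ LG ∧
      (st ω).2 = 2 * rep cG isCartan (cG.wordProd ω) gam 0 - rep cG isCartan (cG.wordProd ω) gam 1 ∧
      3 * (st ω).1 = -3 * rep cG isCartan (cG.wordProd ω) gam 0 + 2 * rep cG isCartan (cG.wordProd ω) gam 1 := by
  induction ω with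
  | nil =>
    rw [wordProd_nil, map_one, Module.End.one_apply]
    simp [gam, LG, st]
  | cons i ω ih =>
    obtain ⟨h1, h2, h3⟩ := ih
    rw [wordProd_cons, rep_mul_apply]
    set x := rep cG isCartan (cG.wordProd ω) gam with hx
    have hi : i = 0 ∨ i = 1 := by fin_cases i <;> simp
    rcases hi with rfl | rfl
    · have e0 : rep cG isCartan (cG.simple 0) x 0 = x 1 - x 0 := by
        rw [rep_simple_apply_self, pair_zero]; ring
      have e1 : rep cG isCartan (cG.simple 0) x 1 = x 1 := rep_simple_apply cG isCartan 0 x 1 (by decide)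
      rw [e0, e1]
      refine ⟨(LG_closed _ h1).1, ?_, ?_⟩
      · show (if (0 : Fin 2) = 0 then _ else _ : ℤ × ℤ).2 = _
        rw [if_pos rfl]
        show -(st ω).2 = _
        rw [h2]; ring
      · show 3 * (if (0 : Fin 2) = 0 then _ else _ : ℤ × ℤ).1 = _
        rw [if_pos rfl]
        show 3 * ((st ω).1 + (st ω).2) = _
        rw [mul_add, h3, h2]; ring
    · have e0 : rep cG isCartan (cG.simple 1) x 1 = 3 * x 0 - x 1 := by
        rw [rep_simple_apply_self, pair_one]; ring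
      have e1 : rep cG isCartan (cG.simple 1) x 0 = x 0 := rep_simple_apply cG isCartan 1 x 0 (by decide)
      rw [e0, e1]
      refine ⟨(LG_closed _ h1).2, ?_, ?_⟩
      · show (if (1 : Fin 2) = 0 then _ else _ : ℤ × ℤ).2 = _
        rw [if_neg (by decide)]
        show (st ω).2 + 3 * (st ω).1 = _
        rw [h3, h2]; ring
      · show 3 * (if (1 : Fin 2) = 0 then _ else _ : ℤ × ℤ).1 = _
        rw [if_neg (by decide)]
        show 3 * -(st ω).1 = _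
        rw [mul_neg, h3]; ring

theorem LG_mod : ∀ z ∈ LG, ∀ u v : ℤ, v = 2 * z.1 - z.2 → 3 * u = -3 * z.1 + 2 * z.2 → 3 ∣ u → 3 ∣ v - 1 →
    z = (2, 3) := by
  intro z hz u v h1 h2 h3 h4
  simp only [LG, List.mem_cons, List.not_mem_nil, or_false] at hz
  rcases hz with rfl | rfl | rfl | rfl | rfl | rfl
  · rfl
  all_goals (exfalso; dsimp only at h1 h2; omega)

/-- the stabilizer of the character -/
theorem mem_WJ_of_st {ω : List (Fin 2)} (h1 : 3 ∣ (st ω).1) (h2 : 3 ∣ (st ω).2 - 1) :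
    cG.wordProd ω ∈ WJ cG {1} := by
  have hfin : Finite CoxeterMatrix.G₂.Group := Nodes.RGDFold.finite_W (hp := hp)
    CoxeterMatrix.G₂.toCoxeterSystem isCartan foldData
  obtain ⟨k1, k2, k3⟩ := st_spec ω
  have h3 := LG_mod _ k1 _ _ k2 k3 h1 h2
  have h4 : rep cG isCartan (cG.wordProd ω) gam = gam := by
    rw [Prod.mk.injEq] at h3
    funext i
    fin_cases i
    · exact h3.1
    · exact h3.2
  have h5 := mem_WJ_of_rep dom_gam h4
  rwa [orth_gam] at h5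

/-! ### the torus -/

section tor

variable {K : Type u} [Field K] [Fintype K] {q : ℕ} {φ : K →+* K} (hφ : ∀ x, φ x = x ^ q)
  (hK : Fintype.card K = q ^ 3)

/-- the units of the fixed field -/
def S₀ (φ : K →+* K) : Subgroup Kˣ := (fu φ).eqLocus (MonoidHom.id Kˣ)

theorem S₀_spec {φ : K →+* K} (s : S₀ φ) : fu φ (s : Kˣ) = s := s.2

include hφ hK in
theorem phi3 (x : K) : φ (φ (φ x)) = x := by
  rw [hφ, hφ, hφ, ← pow_mul, ← pow_mul]
  have h1 : q * (q * q) = Fintype.card K := by rw [hK]; ring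
  rw [h1, FiniteField.pow_card]

/-- the norm -/
def NS : Kˣ →* S₀ φ := (Nm φ).codRestrict (S₀ φ) (fun s => fu_Nm (phi3 hφ hK) s)

theorem coe_NS (r : Kˣ) : ((NS hφ hK r : S₀ φ) : Kˣ) = Nm φ r := rfl

theorem NS_fix (s : S₀ φ) : NS hφ hK (s : Kˣ) = s ^ 3 := by
  apply Subtype.ext
  rw [coe_NS, Nm_apply, S₀_spec, S₀_spec, Subgroup.coe_pow]
  rw [pow_succ, pow_two]

/-- the torus elements -/
noncomputable def tt (r : Kˣ) (s : S₀ φ) : ↥(twistedD4 K q) := hB hφ r * hA hφ s (S₀_spec s)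

theorem tt_mem (r : Kˣ) (s : S₀ φ) : tt hφ r s ∈ T K q := mul_mem (hB_mem hφ r) (hA_mem hφ _ _)

theorem tt_mul (r r' : Kˣ) (s s' : S₀ φ) : tt hφ r s * tt hφ r' s' = tt hφ (r * r') (s * s') := by
  unfold tt
  have h1 : hA hφ s (S₀_spec s) * hB hφ r' = hB hφ r' * hA hφ s (S₀_spec s) :=
    T_comm _ (hA_mem hφ _ _) _ (hB_mem hφ _)
  have h2 : hB hφ r * hA hφ s (S₀_spec s) * (hB hφ r' * hA hφ s' (S₀_spec s')) =
      hB hφ r * (hA hφ s (S₀_spec s) * hB hφ r') * hA hφ s' (S₀_spec s') := by group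
  rw [h2, h1]
  have h3 : hB hφ r * (hB hφ r' * hA hφ s (S₀_spec s)) * hA hφ s' (S₀_spec s') =
      (hB hφ r * hB hφ r') * (hA hφ s (S₀_spec s) * hA hφ s' (S₀_spec s')) := by group
  rw [h3, hB_mul, hA_mul]
  rfl

theorem tt_congr {r r' : Kˣ} {s s' : S₀ φ} (h1 : r = r') (h2 : s = s') : tt hφ r s = tt hφ r' s' := by
  rw [h1, h2]

theorem coe_tt (r : Kˣ) (s : S₀ φ) : (tt hφ r s : GL chevD4.Idx K) = D4H1.hel φ r s := by
  rw [D4H1.hel_eq, wU_hWord' (by norm_num), wU_hWord' (by norm_num), wU_hWord' (by norm_num),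
    wU_hWord' (by norm_num)]
  rfl

theorem tt_inj {r r' : Kˣ} {s s' : S₀ φ} (h : tt hφ r s = tt hφ r' s') : r = r' ∧ s = s' := by
  have h1 := congrArg Subtype.val h
  rw [coe_tt, coe_tt] at h1
  have h2 := D4H1.hel_injective (congrArg Units.val (S₀_spec s)) (congrArg Units.val (S₀_spec s')) h1
  exact ⟨h2.1, Subtype.ext h2.2⟩

include hK in
theorem exists_tt (hq : IsPrimePow q) {g : ↥(twistedD4 K q)} (hg : g ∈ T K q) : ∃ r s, g = tt hφ r s := by
  obtain ⟨r, s, hs, rfl⟩ := exists_tor hφ hq hK hg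
  exact ⟨r, ⟨s, hs⟩, rfl⟩

/-- the torus as a product -/
noncomputable def tH : Kˣ × S₀ φ →* ↥(T K q) :=
  MonoidHom.mk' (fun p => (⟨tt hφ p.1 p.2, tt_mem hφ p.1 p.2⟩ : ↥(T K q))) fun a b => Subtype.ext (by
    show tt hφ (a.1 * b.1) (a.2 * b.2) = tt hφ a.1 a.2 * tt hφ b.1 b.2
    rw [tt_mul])

theorem coe_tH (p : Kˣ × S₀ φ) : ((tH hφ p : ↥(T K q)) : ↥(twistedD4 K q)) = tt hφ p.1 p.2 := rfl

theorem tH_inj : Function.Injective (tH (K := K) (q := q) hφ) := by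
  intro a b h
  have h0 := congrArg Subtype.val h
  rw [coe_tH, coe_tH] at h0
  have h1 := tt_inj hφ h0
  exact Prod.ext h1.1 h1.2

include hK in
theorem tH_surj (hq : IsPrimePow q) : Function.Surjective (tH (K := K) (q := q) hφ) := by
  intro g
  obtain ⟨r, s, e⟩ := exists_tt hφ hK hq g.2
  exact ⟨(r, s), Subtype.ext ((coe_tH hφ (r, s)).trans e.symm)⟩

/-- the torus as a product -/
noncomputable def eT (hq : IsPrimePow q) : Kˣ × S₀ φ ≃* ↥(T K q) :=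
  MulEquiv.ofBijective (tH hφ) ⟨tH_inj hφ, tH_surj hφ hK hq⟩

theorem coe_eT (hq : IsPrimePow q) (p : Kˣ × S₀ φ) :
    ((eT hφ hK hq p : ↥(T K q)) : ↥(twistedD4 K q)) = tt hφ p.1 p.2 := rfl

theorem eT_symm (hq : IsPrimePow q) {t : ↥(T K q)} {r : Kˣ} {s : S₀ φ} (h : (t : ↥(twistedD4 K q)) = tt hφ r s) :
    (eT hφ hK hq).symm t = (r, s) := by
  rw [MulEquiv.symm_apply_eq]
  exact Subtype.ext (h.trans (coe_eT hφ hK hq (r, s)).symm)

theorem n0_tt (r : Kˣ) (s : S₀ φ) : (n hφ 0)⁻¹ * tt hφ r s * n hφ 0 = tt hφ r (NS hφ hK r * s⁻¹) := by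
  have h1 : (n hφ 0)⁻¹ * tt hφ r s * n hφ 0 =
      ((n hφ 0)⁻¹ * hB hφ r * n hφ 0) * ((n hφ 0)⁻¹ * hA hφ s (S₀_spec s) * n hφ 0) := by
    unfold tt
    group
  rw [h1, n0_hB hφ (phi3 hφ hK), n0_hA, mul_assoc, hA_mul]
  rfl

theorem hB_one' : hB hφ 1 = 1 := by
  have := hB_mul hφ 1 1
  rw [one_mul] at this
  exact mul_eq_left.1 this

theorem n1_tt (r : Kˣ) (s : S₀ φ) : (n hφ 1)⁻¹ * tt hφ r s * n hφ 1 = tt hφ (r⁻¹ * s) s := by
  have h1 : (n hφ 1)⁻¹ * tt hφ r s * n hφ 1 =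
      ((n hφ 1)⁻¹ * hB hφ r * n hφ 1) * ((n hφ 1)⁻¹ * hA hφ s (S₀_spec s) * n hφ 1) := by
    unfold tt
    group
  rw [h1, n1_hB hφ, n1_hA, ← mul_assoc, hB_mul]
  rfl

/-- the representatives of the words -/
noncomputable def kk : List (Fin 2) → ↥(twistedD4 K q)
  | [] => 1
  | i :: ω => n hφ i * kk ω

/-- **the action on the torus** -/
theorem conj_word (ω : List (Fin 2)) : ∀ (r : Kˣ) (s : S₀ φ), ∃ r' : Kˣ,
    (kk hφ ω)⁻¹ * tt hφ r s * kk hφ ω = tt hφ r' (NS hφ hK r ^ (st ω).1 * s ^ (st ω).2) := by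
  induction ω with
  | nil =>
    intro r s
    refine ⟨r, ?_⟩
    show (1 : ↥(twistedD4 K q))⁻¹ * tt hφ r s * 1 = _
    rw [inv_one, one_mul, mul_one]
    refine tt_congr hφ rfl ?_
    show s = NS hφ hK r ^ (0 : ℤ) * s ^ (1 : ℤ)
    rw [zpow_zero, one_mul, zpow_one]
  | cons i ω ih =>
    intro r s
    have hi : i = 0 ∨ i = 1 := by fin_cases i <;> simp
    have h0 : (kk hφ (i :: ω))⁻¹ * tt hφ r s * kk hφ (i :: ω) =
        (kk hφ ω)⁻¹ * ((n hφ i)⁻¹ * tt hφ r s * n hφ i) * kk hφ ω := by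
      show (n hφ i * kk hφ ω)⁻¹ * tt hφ r s * (n hφ i * kk hφ ω) = _
      group
    rw [h0]
    rcases hi with rfl | rfl
    · rw [n0_tt hφ hK]
      obtain ⟨r', e⟩ := ih r (NS hφ hK r * s⁻¹)
      refine ⟨r', e.trans (tt_congr hφ rfl ?_)⟩
      have e1 : st (0 :: ω) = ((st ω).1 + (st ω).2, -(st ω).2) := by
        show (if (0 : Fin 2) = 0 then _ else _) = _
        rw [if_pos rfl]
      rw [e1]
      show NS hφ hK r ^ (st ω).1 * (NS hφ hK r * s⁻¹) ^ (st ω).2 =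
        NS hφ hK r ^ ((st ω).1 + (st ω).2) * s ^ (-(st ω).2)
      rw [mul_zpow, zpow_add, inv_zpow', mul_assoc]
    · rw [n1_tt hφ]
      obtain ⟨r', e⟩ := ih (r⁻¹ * s) s
      refine ⟨r', e.trans (tt_congr hφ rfl ?_)⟩
      have e1 : st (1 :: ω) = (-(st ω).1, (st ω).2 + 3 * (st ω).1) := by
        show (if (1 : Fin 2) = 0 then _ else _) = _
        rw [if_neg (by decide)]
      rw [e1]
      show NS hφ hK (r⁻¹ * s) ^ (st ω).1 * s ^ (st ω).2 = NS hφ hK r ^ (-(st ω).1) * s ^ ((st ω).2 + 3 * (st ω).1)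
      rw [map_mul, map_inv, NS_fix, mul_zpow, inv_zpow', ← zpow_natCast s 3, ← zpow_mul, mul_assoc, ← zpow_add,
        add_comm]
      rfl

end tor

/-! ### Mackey's criterion -/

section mac

variable {K : Type u} [Field K] [Fintype K] {q : ℕ} {φ : K →+* K} (hφ : ∀ x, φ x = x ^ q)
  (hK : Fintype.card K = q ^ 3) {p : ℕ} [Fact p.Prime] [CharP K p]

theorem rp_kk (ω : List (Fin 2)) : Rp cG (rgd cG hK hφ p).nsys (cG.wordProd ω) (kk hφ ω) := by
  induction ω with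
  | nil => rw [wordProd_nil]; exact rp_one
  | cons i ω ih => rw [wordProd_cons]; exact (rp_simple cG _ i).mul ih

include hK in
theorem moved {w : CoxeterMatrix.G₂.Group} {g : ↥(twistedD4 K q)} (hg : Rp cG (rgd cG hK hφ p).nsys w g)
    (hw : w ∉ WJ cG {1}) (l : S₀ φ →* ℂˣ) {g₁ : Kˣ} (hl : orderOf (l (NS hφ hK g₁)) = 3) :
    ∃ r s r' s', g * tt hφ r s * g⁻¹ = tt hφ r' s' ∧ l s' ≠ l s := by
  obtain ⟨ω, hω⟩ := cG.wordProd_surjective w⁻¹
  have h1 : Rp cG (rgd cG hK hφ p).nsys w (kk hφ ω)⁻¹ := by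
    have h2 := (rp_kk hφ hK (p := p) ω).inv
    rwa [hω, inv_inv] at h2
  have h3 : g⁻¹ * (kk hφ ω)⁻¹ ∈ T K q := hg.unique h1
  have h4 : ∀ r s, g * tt hφ r s * g⁻¹ = (kk hφ ω)⁻¹ * tt hφ r s * kk hφ ω := by
    intro r s
    have h5 := T_comm _ h3 _ (tt_mem hφ r s)
    have h6 : (kk hφ ω)⁻¹ * tt hφ r s * kk hφ ω =
        g * ((g⁻¹ * (kk hφ ω)⁻¹) * tt hφ r s) * (g⁻¹ * (kk hφ ω)⁻¹)⁻¹ * g⁻¹ := by group
    rw [h6, h5]
    group
  by_cases hu : 3 ∣ (st ω).1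
  · by_cases hv : 3 ∣ (st ω).2 - 1
    · exfalso
      have h7 := mem_WJ_of_st hu hv
      rw [hω] at h7
      exact hw (by simpa using inv_mem h7)
    · obtain ⟨r', e⟩ := conj_word hφ hK ω 1 (NS hφ hK g₁)
      refine ⟨1, NS hφ hK g₁, r', _, (h4 _ _).trans e, ?_⟩
      rw [map_mul, map_one, one_zpow, map_one, one_mul, map_zpow]
      intro h8
      apply hv
      have h9 : l (NS hφ hK g₁) ^ ((st ω).2 - 1) = 1 := by
        rw [zpow_sub_one, h8, mul_inv_cancel]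
      have h10 := orderOf_dvd_iff_zpow_eq_one.2 h9
      rw [hl] at h10
      exact_mod_cast h10
  · obtain ⟨r', e⟩ := conj_word hφ hK ω g₁ 1
    refine ⟨g₁, 1, r', _, (h4 _ _).trans e, ?_⟩
    rw [map_mul, map_one, one_zpow, map_one, mul_one, map_zpow]
    intro h8
    apply hu
    have h10 := orderOf_dvd_iff_zpow_eq_one.2 h8
    rw [hl] at h10
    exact_mod_cast h10

end mac

/-! ### the subgroup `M_J` -/

section mj

variable {K : Type u} [Field K] [Fintype K] {q : ℕ} {φ : K →+* K} (hφ : ∀ x, φ x = x ^ q)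
  (hK : Fintype.card K = q ^ 3)

include hK in
theorem hB_mem_MJ (r : Kˣ) : hB hφ r ∈ MJ cG isCartan (X φ q) {1} := by
  refine sup_le (RGD.le_Sup (H905.Md.sr_mem_Roots 1)) (RGD.le_Sup (RootsJ.neg (H905.Md.sr_mem_Roots 1)))
    (hB_mem_sup hφ (D4Fixed.twisted_le_fix hK hφ) r)

theorem check : ∀ s ∈ [18, 13, 12, 5, 10, 11], s < 24 ∧ 23 ≠ s ∧ 23 ≠ chevD4.neg s ∧ chevD4.commTerms s 23 = [] := by
  decide +kernel

theorem check2 : SparseHDiag.cartanRS chevD4 14 23 = 1 := by decide +kernel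

theorem comm_RS {o : List ℕ} (ho : ∀ s ∈ o, s ∈ [18, 13, 12, 5, 10, 11]) {x : GL chevD4.Idx K}
    (hx : x ∈ D4U.RS K o) : x * D4Comm.xG 23 1 = D4Comm.xG 23 1 * x := by
  have h1 : D4U.RS K o ≤ Subgroup.centralizer {D4Comm.xG 23 1} := by
    refine TwistedU.rspan_le _ fun s hs t => ?_
    rw [Subgroup.mem_centralizer_singleton_iff]
    obtain ⟨a1, a2, a3, a4⟩ := check s (ho s hs)
    have h2 := commute_of_nil hp (K := K) (r := s) (s := 23) a1 (by decide +kernel) a2 a3 a4 t 1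
    rw [xG_eq] at h2
    exact h2.eq
  exact Subgroup.mem_centralizer_singleton_iff.1 (h1 hx)

theorem MJ_comm {m : ↥(twistedD4 K q)} (hm : m ∈ MJ cG isCartan (X φ q) {1}) :
    (m : GL chevD4.Idx K) * D4Comm.xG 23 (1 : K) = D4Comm.xG 23 (1 : K) * (m : GL chevD4.Idx K) := by
  have h1 : MJ cG isCartan (X φ q) {1} ≤
      (Subgroup.centralizer {D4Comm.xG 23 (1 : K)}).comap (twistedD4 K q).subtype := by
    refine RGD.Sup_le fun b hb x hx => ?_
    rw [Subgroup.mem_comap, Subgroup.mem_centralizer_singleton_iff]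
    rcases H905.Md.mem_RootsJ_single hb with rfl | rfl
    · have h2 := Subgroup.mem_subgroupOf.1 hx
      rw [R1] at h2
      exact comm_RS (by simp) h2.1
    · have h2 := Subgroup.mem_subgroupOf.1 hx
      rw [R1'] at h2
      exact comm_RS (by simp) h2.1
  exact Subgroup.mem_centralizer_singleton_iff.1 (h1 hm)

include hK in
theorem snd_of_mem_MJ {r : Kˣ} {s : S₀ φ} (h : tt hφ r s ∈ MJ cG isCartan (X φ q) {1}) : s = 1 := by
  have h1 : hA hφ s (S₀_spec s) ∈ MJ cG isCartan (X φ q) {1} := by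
    have h2 := mul_mem (inv_mem (hB_mem_MJ hφ hK r)) h
    unfold tt at h2
    rwa [inv_mul_cancel_left] at h2
  have h3 := MJ_comm h1
  rw [coe_hA] at h3
  have h4 := D4HConj.hR_conj (r := 14) (s := 23) (by norm_num) (by norm_num) ((s : Kˣ).ne_zero) (1 : K)
  rw [check2, zpow_one, mul_one] at h4
  have h5 : D4NConj.hR 14 ((s : Kˣ) : K) * D4Comm.xG 23 1 * (D4NConj.hR 14 ((s : Kˣ) : K))⁻¹ = D4Comm.xG 23 1 := by
    rw [h3, mul_inv_cancel_right]
  have h6 : (D4Comm.xG 23 (1 : K)) = D4Comm.xG 23 ((s : Kˣ) : K) := h5.symm.trans h4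
  rw [← xG_eq] at h6
  have h7 := Elts.xG_injective hp.inList (r := 23) (by decide +kernel) h6
  exact Subtype.ext (Units.ext h7.symm)

end mj

/-! ### the index -/

section idx

variable {K : Type u} [Field K] [Fintype K] {q : ℕ} {φ : K →+* K} (hφ : ∀ x, φ x = x ^ q)
  (hK : Fintype.card K = q ^ 3)

theorem arith {q i : ℕ} (hq : 2 ≤ q) (h : i * (1 + q ^ 3) * ((q - 1) ^ 2 * (q ^ 2 + q + 1)) =
    (q ^ 2 - 1) * (q ^ 6 - 1) * (q ^ 8 + q ^ 4 + 1)) : i = (q + 1) * (q ^ 8 + q ^ 4 + 1) := by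
  obtain ⟨x, rfl⟩ : ∃ x, q = x + 1 := ⟨q - 1, by omega⟩
  have e1 : (x + 1) ^ 2 - 1 = x * (x + 2) := by
    apply Nat.sub_eq_of_eq_add; ring
  have e2 : (x + 1) ^ 6 - 1 = x * ((x + 1) ^ 2 + (x + 1) + 1) * (1 + (x + 1) ^ 3) := by
    apply Nat.sub_eq_of_eq_add; ring
  rw [e1, e2, Nat.add_sub_cancel] at h
  have hpos : 0 < (1 + (x + 1) ^ 3) * (x ^ 2 * ((x + 1) ^ 2 + (x + 1) + 1)) := by
    have : 0 < x := by omega
    positivity
  apply Nat.eq_of_mul_eq_mul_right hpos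
  calc i * ((1 + (x + 1) ^ 3) * (x ^ 2 * ((x + 1) ^ 2 + (x + 1) + 1)))
      = i * (1 + (x + 1) ^ 3) * (x ^ 2 * ((x + 1) ^ 2 + (x + 1) + 1)) := by ring
    _ = _ := by rw [h]; ring

open Cfsg.Agent.H35.ExcIdx in
include hφ hK in
theorem index_eq' (hq : IsPrimePow q) :
    (PJ cG isCartan (T K q) (X φ q) {1}).index = (q + 1) * (q ^ 8 + q ^ 4 + 1) := by
  have : Finite (GL chevD4.Idx K) := inferInstance
  obtain ⟨p, hcp⟩ := CharP.exists K
  have hp' : Fact p.Prime := ⟨CharP.char_is_prime K p⟩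
  have h2 : 2 ≤ q := hq.two_le
  obtain ⟨r, f, hr, hf, hrf⟩ := hq
  have hr' : r.Prime := hr.nat_prime
  have hpr : p = r := by
    obtain ⟨n, hpp, hn⟩ := FiniteField.card K p
    have h3 : p ∣ r := by
      have h4 : p ∣ Fintype.card K := by rw [hn]; exact dvd_pow_self p n.pos.ne'
      rw [hK, ← hrf, ← pow_mul] at h4
      exact hpp.dvd_of_dvd_pow h4
    exact (Nat.prime_dvd_prime_iff_eq hpp hr').1 h3
  subst hpr
  have hq' : IsPrimePow q := ⟨p, f, hr, hf, hrf⟩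
  have hfin : Finite CoxeterMatrix.G₂.Group := Nodes.RGDFold.finite_W (hp := hp)
    CoxeterMatrix.G₂.toCoxeterSystem isCartan foldData
  have hR := rgd cG hK hφ p
  have hG1 : Nodes.RGDLib.G1 cG isCartan (X φ q) = ⊤ := G1_eq_top _ hK hφ
  have hGG : GG cG isCartan (T K q) (X φ q) = ⊤ := by
    rw [eq_top_iff, ← hG1]
    exact le_sup_right
  have hc := H934.RowTwD4.card_X hφ (by omega) hK
  have hN := card_step hR H934.RowTwD4.path1 (y := q ^ 3) (fun i hi => by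
    rw [List.mem_singleton] at hi
    rw [hc, hi]
    rfl) (card_nil hR)
  have hT : 1 * Nat.card ↥(T K q) = (q - 1) ^ 2 * (q ^ 2 + q + 1) := by
    rw [one_mul, ← Cfsg.Agent.S1106.result hq' hK]
    exact Nat.card_congr (Subgroup.subgroupOfEquivOfLe inf_le_right).toEquiv
  have hS : 1 * Nat.card ↥(twistedD4 K q) = p ^ (f * 12) * ((q ^ 2 - 1) * (q ^ 6 - 1) * (q ^ 8 + q ^ 4 + 1)) := by
    rw [one_mul, Cfsg.Agent.S1067.result hq' hK, pow_mul, hrf]
    ring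
  have hpq : p ∣ q := by rw [← hrf]; exact dvd_pow_self p hf.ne'
  have hsub : ∀ k, k ≠ 0 → ¬ p ∣ q ^ k - 1 := by
    intro k hk h3
    have h4 : p ∣ q ^ k := dvd_pow hpq hk
    have h5 : 1 ≤ q ^ k := Nat.one_le_pow _ _ (by omega)
    have h6 := Nat.dvd_sub h4 h3
    rw [Nat.sub_sub_self h5] at h6
    exact hr'.one_lt.ne' (Nat.dvd_one.1 h6)
  have hP : ¬ p ∣ (q ^ 2 - 1) * (q ^ 6 - 1) * (q ^ 8 + q ^ 4 + 1) := by
    rw [hr'.dvd_mul, hr'.dvd_mul]
    rintro ((h3 | h3) | h3)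
    · exact hsub 2 (by norm_num) h3
    · exact hsub 6 (by norm_num) h3
    · have h4 : p ∣ q ^ 8 + q ^ 4 := dvd_add (dvd_pow hpq (by norm_num)) (dvd_pow hpq (by norm_num))
      exact hr'.one_lt.ne' (Nat.dvd_one.1 ((Nat.dvd_add_right h4).1 h3))
  have h6 := index_eq hR hGG hN (d := 1) (fun h => hr'.one_lt.ne' (Nat.dvd_one.1 h)) hT hS hP
  have hFA : FA [(1 : Fin 2)].length (q ^ 3) * 1 = 1 + q ^ 3 := by simp [FA, Finset.sum_range_succ]
  rw [hFA] at h6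
  have hJ : ({j | j ∈ ([1] : List (Fin 2))} : Set (Fin 2)) = {1} := by
    ext j
    simp
  rw [hJ] at h6
  exact arith h2 h6

theorem val_three {q : ℕ} (h : q % 3 = 1) : ((q + 1) * (q ^ 8 + q ^ 4 + 1)).factorization 3 = 1 := by
  have h1 : ∃ k, q ^ 4 = 3 * k + 1 := by
    have h2 : q ^ 4 % 3 = 1 := by rw [Nat.pow_mod, h]
    exact ⟨q ^ 4 / 3, by omega⟩
  obtain ⟨k, hk⟩ := h1
  have h3 : q ^ 8 + q ^ 4 + 1 = 3 * (3 * (k ^ 2 + k) + 1) := by
    have : q ^ 8 = (q ^ 4) ^ 2 := by ring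
    rw [this, hk]; ring
  have h4 : (q + 1) * (q ^ 8 + q ^ 4 + 1) = 3 ^ 1 * ((q + 1) * (3 * (k ^ 2 + k) + 1)) := by rw [h3]; ring
  rw [h4]
  have hp : Nat.Prime 3 := Nat.prime_three
  have h5 : ¬ 3 ∣ (q + 1) * (3 * (k ^ 2 + k) + 1) := by
    rw [hp.dvd_mul]
    rintro (h6 | h6)
    · omega
    · omega
  have h6 : (q + 1) * (3 * (k ^ 2 + k) + 1) ≠ 0 := by positivity
  rw [Nat.factorization_mul (by norm_num) h6, Finsupp.add_apply, pow_one, hp.factorization_self,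
    Nat.factorization_eq_zero_of_not_dvd h5]

end idx

/-! ### the row -/

section row

variable {K : Type u} [Field K] [Fintype K] {q : ℕ} {φ : K →+* K} (hφ : ∀ x, φ x = x ^ q)
  (hK : Fintype.card K = q ^ 3)

include hφ hK in
theorem card_S₀ (hq : 1 < q) : Nat.card (S₀ φ) = q - 1 := by
  rw [← D4H1.card_fixed hq hK hφ]
  refine Nat.card_congr (Equiv.subtypeEquivRight fun b => ?_)
  constructor
  · intro h
    exact congrArg Units.val h
  · intro h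
    exact Units.ext h

theorem orderOf_NS (hq : 1 < q) {g₁ : Kˣ} (hg : ∀ x, x ∈ Subgroup.zpowers g₁) : orderOf (NS hφ hK g₁) = q - 1 := by
  classical
  have h1 : orderOf g₁ = q ^ 3 - 1 := by
    rw [orderOf_eq_card_of_forall_mem_zpowers hg, D4H1.natCard_units hK]
  have h2 : ((NS hφ hK g₁ : S₀ φ) : Kˣ) = g₁ ^ (1 + q + q ^ 2) := by
    rw [coe_NS, Nm_apply]
    apply Units.ext
    simp only [Units.val_mul, coe_fu, hφ, Units.val_pow_eq_pow_val]
    rw [← pow_mul, pow_add, pow_add, pow_one, pow_two q]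
  rw [← Subgroup.orderOf_coe, h2]
  have h3 : q ^ 3 - 1 = (q - 1) * (1 + q + q ^ 2) := by
    obtain ⟨x, rfl⟩ : ∃ x, q = x + 1 := ⟨q - 1, by omega⟩
    rw [Nat.add_sub_cancel]
    apply Nat.sub_eq_of_eq_add
    ring
  rw [orderOf_pow_of_dvd (by positivity) (by rw [h1, h3]; exact dvd_mul_left _ _), h1, h3,
    Nat.mul_div_cancel _ (by positivity)]

theorem zpowers_NS (hq : 1 < q) {g₁ : Kˣ} (hg : ∀ x, x ∈ Subgroup.zpowers g₁) (s : S₀ φ) :
    s ∈ Subgroup.zpowers (NS hφ hK g₁) := by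
  have : Finite (S₀ φ) := inferInstance
  have h1 : Subgroup.zpowers (NS hφ hK g₁) = ⊤ := by
    apply Subgroup.eq_top_of_card_eq
    rw [Nat.card_zpowers, orderOf_NS hφ hK hq hg, card_S₀ hφ hK hq]
  rw [h1]
  exact Subgroup.mem_top s

theorem tt_one : tt hφ 1 (1 : S₀ φ) = (1 : ↥(twistedD4 K q)) := by
  have h1 := tt_mul hφ 1 1 (1 : S₀ φ) 1
  rw [mul_one, mul_one] at h1
  exact mul_eq_left.1 h1

theorem tt_right (r : Kˣ) : tt hφ r (1 : S₀ φ) = hB hφ r := by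
  have h1 := tt_one hφ
  unfold tt at h1 ⊢
  rw [hB_one' hφ, one_mul] at h1
  rw [h1, mul_one]

theorem tt_pow (s : S₀ φ) (k : ℕ) : tt hφ 1 s ^ k = tt hφ 1 (s ^ k) := by
  induction k with
  | zero => rw [pow_zero, pow_zero, tt_one]
  | succ k ih => rw [pow_succ, ih, tt_mul, mul_one, pow_succ]

include hφ hK in
/-- **The row of `³D₄(q)`, `3 ∣ q - 1`.** -/
theorem row_phi (hq : IsPrimePow q) (h3 : 3 ∣ q - 1) : Row 3 ↥(twistedD4 K q) := by
  classical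
  obtain ⟨p, hcp⟩ := CharP.exists K
  have hp' : Fact p.Prime := ⟨CharP.char_is_prime K p⟩
  have hfin : Finite CoxeterMatrix.G₂.Group := Nodes.RGDFold.finite_W (hp := hp)
    CoxeterMatrix.G₂.toCoxeterSystem isCartan foldData
  have hfG : Finite (GL chevD4.Idx K) := inferInstance
  have hq1 : 1 < q := hq.one_lt
  have hpq : p ∣ q := by
    obtain ⟨n, hpp, hn⟩ := FiniteField.card K p
    have h4 : p ∣ Fintype.card K := by rw [hn]; exact dvd_pow_self p n.pos.ne'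
    rw [hK] at h4
    exact hpp.dvd_of_dvd_pow h4
  have hp3 : 3 ≠ p := by
    rintro rfl
    omega
  obtain ⟨g₁, hg₁⟩ := IsCyclic.exists_generator (α := Kˣ)
  -- the character of order three
  have hζ := Complex.isPrimitiveRoot_exp 3 (by norm_num)
  obtain ⟨ζ, hζ1⟩ : ∃ ζ : ℂˣ, orderOf ζ = 3 := by
    refine ⟨hζ.isUnit (by norm_num) |>.unit, ?_⟩
    rw [← orderOf_units, IsUnit.unit_spec]
    exact hζ.eq_orderOf.symm
  have hord := orderOf_NS hφ hK hq1 hg₁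
  have hgen := zpowers_NS hφ hK hq1 hg₁
  let l : S₀ φ →* ℂˣ := monoidHomOfForallMemZpowers hgen (g' := ζ) (by rw [hζ1, hord]; exact h3)
  have hl1 : l (NS hφ hK g₁) = ζ := monoidHomOfForallMemZpowers_apply_gen hgen _
  have hl3 : ∀ s, l s ^ 3 = 1 := by
    intro s
    obtain ⟨k, rfl⟩ := Subgroup.mem_zpowers_iff.1 (hgen s)
    rw [map_zpow, hl1, ← zpow_natCast, ← zpow_mul, mul_comm, zpow_mul, zpow_natCast, ← hζ1, pow_orderOf_eq_one,
      one_zpow]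
  have hlo : orderOf (l (NS hφ hK g₁)) = 3 := by rw [hl1, hζ1]
  let l₀ : ↥(T K q) →* ℂˣ := (l.comp (MonoidHom.snd Kˣ (S₀ φ))).comp (eT hφ hK hq).symm.toMonoidHom
  have hl₀ : ∀ (t : ↥(T K q)) r s, (t : ↥(twistedD4 K q)) = tt hφ r s → l₀ t = l s := by
    intro t r s h
    show l (((eT hφ hK hq).symm t).2) = l s
    rw [eT_symm hφ hK hq h]
  refine row_of_rgd (rgd cG hK hφ p) (G1_eq_top cG hK hφ) hp3 (H523.TwD4.cycOut hq hK p) {1} l₀ ?_ ?_
    ⟨tt hφ 1 (NS hφ hK g₁), tt_mem hφ _ _⟩ ?_ ?_ ?_ ?_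
  · intro t
    obtain ⟨r, s, e⟩ := exists_tt hφ hK hq t.2
    rw [hl₀ t r s e, hl3]
  · intro t ht
    obtain ⟨r, s, e⟩ := exists_tt hφ hK hq t.2
    rw [e] at ht
    rw [hl₀ t r s e, snd_of_mem_MJ hφ hK ht, map_one]
  · rw [hl₀ _ 1 _ rfl, hl1]
    intro h
    rw [h, orderOf_one] at hζ1
    exact absurd hζ1 (by norm_num)
  · intro t
    obtain ⟨r, s, e⟩ := exists_tt hφ hK hq t.2
    have hs := hgen s
    rw [← mem_powers_iff_mem_zpowers] at hs
    obtain ⟨k, rfl⟩ := hs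
    refine ⟨k, ?_⟩
    have h1 : ((tt hφ 1 (NS hφ hK g₁)) ^ k)⁻¹ * (t : ↥(twistedD4 K q)) = hB hφ r := by
      rw [e, inv_mul_eq_iff_eq_mul, tt_pow, ← tt_right, tt_mul, one_mul, mul_one]
    rw [h1]
    exact hB_mem_MJ hφ hK r
  · rw [index_eq' hφ hK hq]
    exact val_three (by omega)
  · intro w g hg hw _ _
    obtain ⟨r, s, r', s', e, hne⟩ := moved hφ hK hg hw l hlo
    refine ⟨⟨tt hφ r s, tt_mem hφ _ _⟩, ⟨tt hφ r' s', tt_mem hφ _ _⟩, e.symm, ?_⟩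
    rw [hl₀ _ r' s' rfl, hl₀ _ r s rfl]
    exact hne

end row

/-- **The row of `³D₄(q)`, `3 ∣ q - 1`.** -/
theorem row_d4_one {K : Type u} [Field K] [Fintype K] {q : ℕ} (hq : IsPrimePow q) (hK : Fintype.card K = q ^ 3)
    (h3 : 3 ∣ q - 1) : Row 3 ↥(twistedD4 K q) := by
  obtain ⟨φ, hφ⟩ := D4Fixed.exists_frob hq hK
  exact row_phi hφ hK hq h3

end Cfsg.Agent.H67.HT.D4One
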